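import Cfsg.Agent.H6.CharP
import Cfsg.Agent.H1.PCon
import Cfsg.Agent.S0058
import Cfsg.Agent.H1.Class2

set_option autoImplicit false
open Cfsg Subgroup Cfsg.Agent.H6

namespace Cfsg.Agent.L0.Con2

theorem con_iff {X : Type*} [Group X] [Finite X] {p : ℕ} [Fact p.Prime] (h : pPrimeCore p X = ⊥) :
    IsPConstrained p X ↔ Subgroup.centralizer (pCore p X : Set X) ≤ pCore p X := by
  rw [H1.pConstrained_iff]
  let e : X ≃* X ⧸ pPrimeCore p X := QuotientGroup.quotientBot.symm.trans (QuotientGroup.quotientMulEquivOfEq h.symm)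
  have h1 := L0.pCore_map_equiv p e
  have h2 := L0.pCore_map_equiv p e.symm
  exact ⟨fun h3 => H1.cent_equiv e.symm h2 h3, fun h3 => H1.cent_equiv e h1 h3⟩

theorem core_bot {X : Type*} [Group X] [Finite X] {p : ℕ} [Fact p.Prime] (h : Subgroup.centralizer (pCore p X : Set X) ≤ pCore p X) :
    pPrimeCore p X = ⊥ := by
  have hd : Disjoint (pPrimeCore p X) (pCore p X) := by
    rw [disjoint_iff]
    apply Subgroup.inf_eq_bot_of_coprime
    obtain ⟨k, hk⟩ := IsPGroup.iff_card.mp (L0.pCore_isPGroup p X)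
    rw [hk]
    exact (L0.pPrimeCore_coprime p X).pow_right k
  have hle : pPrimeCore p X ≤ pCore p X := by
    refine le_trans ?_ h
    intro x hx
    rw [Subgroup.mem_centralizer_iff]
    intro y hy
    exact (Subgroup.commute_of_normal_of_disjoint _ _ inferInstance inferInstance hd x y hx hy).symm
  rw [disjoint_iff] at hd
  rw [← hd, inf_eq_left.mpr hle]

variable {G : Type*} [Group G] [Finite G]

/-- the centralizer of an involution equals the normalizer of the subgroup it generates -/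
theorem cent_eq_norm {u : G} (hu : orderOf u = 2) : Subgroup.centralizer ({u} : Set G) = Subgroup.normalizer (Subgroup.zpowers u : Set G) := by
  have hmem : ∀ y ∈ Subgroup.zpowers u, y = 1 ∨ y = u := by
    intro y hy
    have h1 : Nat.card (Subgroup.zpowers u) = 2 := by rw [Nat.card_zpowers, hu]
    have h2 : ({1, u} : Set G) ⊆ (Subgroup.zpowers u : Set G) := by
      rintro x (rfl | rfl)
      · exact one_mem _
      · exact Subgroup.mem_zpowers _
    have h3 : u ≠ 1 := by rintro rfl; rw [orderOf_one] at hu; norm_num at hu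
    have h4 := Set.eq_of_subset_of_ncard_le h2 (by rw [Set.ncard_pair h3.symm]; exact h1.le) (Set.toFinite _)
    have h5 : y ∈ ({1, u} : Set G) := by rw [h4]; exact hy
    simpa using h5
  ext g
  rw [Subgroup.mem_centralizer_singleton_iff, Subgroup.mem_set_normalizer_iff]
  constructor
  · intro h y
    constructor
    · intro hy
      rcases hmem y hy with rfl | rfl
      · rw [mul_one, mul_inv_cancel]; exact one_mem _
      · rw [h, mul_inv_cancel_right]; exact hy
    · intro hy
      have h6 : y = g⁻¹ * (g * y * g⁻¹) * g := by group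
      rcases hmem _ hy with h7 | h7
      · rw [h6, h7, mul_one, inv_mul_cancel]; exact one_mem _
      · rw [h6, h7, mul_assoc, ← h, inv_mul_cancel_left]; exact Subgroup.mem_zpowers _
  · intro h
    have h1 := (h u).mp (Subgroup.mem_zpowers u)
    rcases hmem _ h1 with h2 | h2
    · exfalso
      have : u = g⁻¹ * (g * u * g⁻¹) * g := by group
      rw [h2, mul_one, inv_mul_cancel] at this
      rw [this, orderOf_one] at hu; norm_num at hu
    · calc g * u = (g * u * g⁻¹) * g := by group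
        _ = u * g := by rw [h2]

theorem fix_bot (S : Sylow 2 G) (hN : ∀ T : Subgroup G, IsPGroup 2 T → T ≠ ⊥ → CP 2 (Subgroup.normalizer (T : Set G)))
    {X : Subgroup G} (hX : Odd (Nat.card X)) (hSX : (S : Subgroup G) ≤ Subgroup.normalizer (X : Set G))
    {u : G} (hu : orderOf u = 2) (hrel : (Subgroup.centralizer ({u} : Set G)).relIndex (S : Subgroup G) ∣ 2) :
    X ⊓ Subgroup.centralizer ({u} : Set G) = ⊥ := by
  haveI : Fact (Nat.Prime 2) := ⟨Nat.prime_two⟩
  obtain ⟨C, hC⟩ : ∃ C, C = Subgroup.centralizer ({u} : Set G) := ⟨_, rfl⟩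
  have hu1 : u ≠ 1 := by rintro rfl; rw [orderOf_one] at hu; norm_num at hu
  have hCP : CP 2 C := by
    rw [hC, cent_eq_norm hu]
    apply hN
    · apply IsPGroup.of_card (n := 1)
      rw [Nat.card_zpowers, hu, pow_one]
    · intro h
      exact hu1 (Subgroup.zpowers_eq_bot.mp h)
  rw [← hC] at hrel ⊢
  obtain ⟨R, hR⟩ : ∃ R, R = pCoreOf 2 C := ⟨_, rfl⟩
  have hRp : IsPGroup 2 R := by rw [hR]; exact pCoreOf_isPGroup C
  have hRC : R ≤ C := by rw [hR]; exact pCoreOf_le C
  have hCR : C ≤ Subgroup.normalizer (R : Set G) := by rw [hR]; exact le_norm_pCoreOf C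
  obtain ⟨S0, hS0⟩ : ∃ S0 : Subgroup G, S0 = (S : Subgroup G) ⊓ C := ⟨_, rfl⟩
  have hS0C : S0 ≤ C := by rw [hS0]; exact inf_le_right
  have hS0S : S0 ≤ (S : Subgroup G) := by rw [hS0]; exact inf_le_left
  have hS0p : IsPGroup 2 S0 := S.isPGroup'.to_le hS0S
  -- card
  have hc1 : Nat.card (S : Subgroup G) ≤ 2 * Nat.card S0 := by
    have h1 := Subgroup.card_mul_index (S0.subgroupOf (S : Subgroup G))
    have h2 := Nat.card_congr (Subgroup.subgroupOfEquivOfLe hS0S).toEquiv
    rw [h2] at h1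
    have h3 : (S0.subgroupOf (S : Subgroup G)).index = C.relIndex (S : Subgroup G) := by
      rw [hS0, Subgroup.inf_subgroupOf_left]; rfl
    rw [h3] at h1
    have h4 := Nat.le_of_dvd (by norm_num) hrel
    rw [← h1, mul_comm]
    exact Nat.mul_le_mul_right _ h4
  have hRS : IsPGroup 2 (S0 ⊔ R : Subgroup G) := by
    have := IsPGroup.to_sup_of_normal_right' (H := S0) (K := R) hS0p hRp (hS0C.trans hCR)
    exact this
  have hc2 : Nat.card (S0 ⊔ R : Subgroup G) ≤ Nat.card (S : Subgroup G) := by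
    obtain ⟨T, hT⟩ := hRS.exists_le_sylow
    calc Nat.card (S0 ⊔ R : Subgroup G) ≤ Nat.card (T : Subgroup G) := Nat.card_le_card_of_injective _ (Subgroup.inclusion_injective hT)
      _ = Nat.card (S : Subgroup G) := Nat.card_congr (Sylow.equiv T S).toEquiv
  have hrel2 : (S0 ⊓ R).relIndex R ≤ 2 := by
    rw [Subgroup.inf_relIndex_right]
    have h1 : S0.relIndex R ≤ S0.relIndex (S0 ⊔ R) := by
      apply Subgroup.relIndex_le_of_le_right le_sup_right
      exact Subgroup.index_ne_zero_of_finite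
    have h2 := Subgroup.card_mul_index (S0.subgroupOf (S0 ⊔ R))
    have h3 := Nat.card_congr (Subgroup.subgroupOfEquivOfLe (le_sup_left : S0 ≤ S0 ⊔ R)).toEquiv
    rw [h3] at h2
    have h4 : Nat.card S0 * S0.relIndex (S0 ⊔ R) ≤ Nat.card S0 * 2 := by
      calc Nat.card S0 * S0.relIndex (S0 ⊔ R) = Nat.card (S0 ⊔ R : Subgroup G) := h2
        _ ≤ Nat.card (S : Subgroup G) := hc2
        _ ≤ 2 * Nat.card S0 := hc1
        _ = _ := mul_comm _ _
    exact h1.trans (Nat.le_of_mul_le_mul_left h4 Nat.card_pos)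
  rw [Subgroup.eq_bot_iff_forall]
  intro g hg
  obtain ⟨hgX, hgC⟩ := Subgroup.mem_inf.mp hg
  have hgo : Odd (orderOf g) := by
    apply hX.of_dvd_nat
    exact Subgroup.orderOf_dvd_natCard X hgX
  have hRX : ∀ y, y ∈ R → y ∈ X → y = 1 := by
    intro y h1 h2
    obtain ⟨k, hk⟩ := IsPGroup.iff_orderOf.1 hRp ⟨y, h1⟩
    rw [Subgroup.orderOf_mk] at hk
    have h3 : Odd (orderOf y) := hX.of_dvd_nat (Subgroup.orderOf_dvd_natCard X h2)
    rw [hk] at h3
    have hk0 : k = 0 := by
      by_contra h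
      exact (Nat.not_odd_iff_even.mpr ((Nat.even_pow' h).mpr even_two)) h3
    rw [hk0, pow_zero] at hk
    exact orderOf_eq_one_iff.mp hk
  have hgA : g ∈ Subgroup.centralizer ((S0 ⊓ R : Subgroup G) : Set G) := by
    rw [Subgroup.mem_centralizer_iff]
    intro a ha
    obtain ⟨ha1, ha2⟩ := Subgroup.mem_inf.mp ha
    have h1 : g * a * g⁻¹ * a⁻¹ = 1 := by
      apply hRX
      · exact R.mul_mem ((Subgroup.mem_set_normalizer_iff.mp (hCR hgC) a).mp ha2) (R.inv_mem ha2)
      · have h2 : g * a * g⁻¹ * a⁻¹ = g * (a * g⁻¹ * a⁻¹) := by group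
        rw [h2]
        exact X.mul_mem hgX ((Subgroup.mem_set_normalizer_iff.mp (hSX (hS0S ha1)) _).mp (X.inv_mem hgX))
    have h3 : g * a = a * g := by
      calc g * a = (g * a * g⁻¹ * a⁻¹) * (a * g) := by group
        _ = a * g := by rw [h1, one_mul]
    exact h3.symm
  have hgR := H1.centralizes_of_relIndex_two hRp (hCR hgC) hgo inf_le_right hgA hrel2
  refine hCP g hgC (Nat.coprime_two_right.mpr hgo) ?_
  intro a ha
  rw [← hR] at ha
  exact Subgroup.mem_centralizer_iff.mp hgR a ha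

end Cfsg.Agent.L0.Con2
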